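import Cfsg.Agent.H969.DPi.Frame
import Cfsg.Agent.H572.DP.Hall

/-!
# `r`-elements on a block (helper572, S4247 [O])

`exists_conj_mem` : Sylow's theorem in a subgroup `M ⊴ N` normalised by the Hall subgroup.

`comm_of_block` : an `r`-element of `K` supported by a `t`-block and normalising `T` centralises `T`.
-/

set_option autoImplicit false
set_option linter.unusedSectionVars false

namespace Cfsg.Agent.H572.DPO

open Module Subgroup Cfsg Cfsg.Agent.H167.OP Cfsg.Agent.H560.HallKey Cfsg.Agent.H170.HL Cfsg.Agent.H988.CPi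
  Cfsg.Agent.H553.OddHall Cfsg.Agent.H571.RV Cfsg.Agent.H572.RV Cfsg.Agent.H969.DPi

section abs

variable {G : Type*} [Group G] [Finite G] {π : Set ℕ} {H N M : Subgroup G} {r : ℕ}

/-- a conjugate under `M` of an `r`-element of `M` lies in `H` -/
theorem exists_conj_mem (hH : IsPiHall π H) (hN : H ≤ normalizer (N : Set G)) (hMN : M ≤ N)
    (hNM : N ≤ normalizer (M : Set G)) (hr : r.Prime) (hrπ : r ∈ π) {z : G} (hz : z ∈ M)
    (hzr : ∃ k : ℕ, z ^ r ^ k = 1) : ∃ g ∈ M, g * z * g⁻¹ ∈ H := by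
  have hrf := Fact.mk hr
  have h1 := H572.DP.hall_inf hH hN
  have h2 : H.subgroupOf N ≤ normalizer ((M.subgroupOf N : Subgroup N) : Set N) := by
    have : (M.subgroupOf N).Normal := (Subgroup.normal_subgroupOf_iff_le_normalizer hMN).mpr hNM
    rw [Subgroup.normalizer_eq_top]
    exact le_top
  have h3 := H572.DP.hall_inf h1 h2
  obtain ⟨T, S, hS⟩ := exists_sylow_map (t := r) hrπ h3
  obtain ⟨z', hz'⟩ : ∃ z' : M.subgroupOf N, z' = ⟨⟨z, hMN hz⟩, hz⟩ := ⟨_, rfl⟩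
  have hZ : IsPGroup r (Subgroup.zpowers z') := by
    obtain ⟨k, hk⟩ := hzr
    have h4 : z' ^ r ^ k = 1 := by
      rw [hz']
      exact Subtype.ext (Subtype.ext hk)
    refine IsPGroup.of_card_dvd_pow (n := k) ?_
    rw [Nat.card_zpowers]
    exact orderOf_dvd_of_pow_eq_one h4
  obtain ⟨S', hS'⟩ := hZ.exists_le_sylow
  obtain ⟨g, hg⟩ := MulAction.exists_smul_eq (M.subgroupOf N) S' S
  have hgz : g * z' * g⁻¹ ∈ (S : Subgroup (M.subgroupOf N)) := by
    rw [← hg]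
    exact ⟨z', hS' (Subgroup.mem_zpowers _), rfl⟩
  rw [hS] at hgz
  obtain ⟨x, -, hxe⟩ := hgz
  refine ⟨g, g.2, ?_⟩
  have h5 : ((x : M.subgroupOf N) : N) ∈ H.subgroupOf N := x.2
  have h6 : (((x : M.subgroupOf N) : N) : G) = (g : G) * z * (g : G)⁻¹ := by
    have h7 := congrArg (fun a : M.subgroupOf N => ((a : N) : G)) hxe
    rw [hz'] at h7
    exact h7
  rw [← h6]
  exact h5

end abs

variable {F : Type*} [Field F] [Finite F] {V : Type*} [AddCommGroup V] [Module F V] [Finite V]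
  [FiniteDimensional F V] {K : Type*} [Group K] [Finite K]
  {ρ : Representation F K V} {f : V →ₗ[F] V →ₗ[F] F} {Q : V → F} {π : Set ℕ} {U : Submodule F V}
  {H : Subgroup K} {r t : ℕ}

theorem FB_le_norm : H ≤ normalizer (FB ρ t H : Set K) := by
  have key : ∀ g ∈ H, ∀ k ∈ FB ρ t H, g * k * g⁻¹ ∈ FB ρ t H := by
    intro g hg k hk U hU
    have h1 := hk _ (Bl_map (H.inv_mem hg) hU)
    rw [← RV.map_map, ← RV.map_map, h1, RV.map_map, mul_inv_cancel, map_one']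
  intro g hg
  rw [Subgroup.mem_normalizer_iff]
  intro k
  refine ⟨key g hg k, fun hk => ?_⟩
  have h1 := key g⁻¹ (H.inv_mem hg) _ hk
  have h2 : g⁻¹ * (g * k * g⁻¹) * g⁻¹⁻¹ = k := by group
  rwa [h2] at h1

/-- the elements which preserve `U` and are trivial on its orthogonal space -/
def IU (ρ : Representation F K V) (f : V →ₗ[F] V →ₗ[F] F) (U : Submodule F V) : Subgroup K where
  carrier := {g | U.map (ρ g) = U ∧ ∀ w ∈ Orth f U, ρ g w = w}
  mul_mem' := fun {a b} ha hb => ⟨by rw [← RV.map_map, hb.1, ha.1], fun w hw => by rw [mul_ap, hb.2 w hw, ha.2 w hw]⟩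
  one_mem' := ⟨map_one' U, fun w _ => one_ap ρ w⟩
  inv_mem' := fun {a} ha => ⟨map_inv_of_map ha.1, fun w hw => by
    nth_rewrite 1 [← ha.2 w hw]
    rw [inv_ap]⟩

theorem IU_le_FB (h : Std ρ f Q t H) (hU : U ∈ Bl ρ t H) : IU ρ f U ≤ FB ρ t H := by
  intro g hg U' hU'
  by_cases hne : U = U'
  · rw [← hne]; exact hg.1
  · have h1 : ∀ u ∈ U', ρ g u = u := fun u hu => hg.2 u (h.orth_of_bl hU hU' hne hu)
    ext v
    constructor
    · rintro ⟨u, hu, rfl⟩; rw [h1 u hu]; exact hu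
    · intro hv; exact ⟨v, hv, h1 v hv⟩

theorem FB_le_norm_IU (h : Std ρ f Q t H) (hU : U ∈ Bl ρ t H) : FB ρ t H ≤ normalizer (IU ρ f U : Set K) := by
  have key : ∀ g ∈ FB ρ t H, ∀ k ∈ IU ρ f U, g * k * g⁻¹ ∈ IU ρ f U := by
    intro g hg k hk
    have h1 : U.map (ρ g) = U := hg U hU
    have h2 := map_inv_of_map h1
    refine ⟨?_, fun w hw => ?_⟩
    · rw [← RV.map_map, ← RV.map_map, h2, hk.1, h1]
    · have h3 := mem_of_map (Orth_map_of_map h.toIsoG h2) hw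
      rw [mul_ap, mul_ap, hk.2 _ h3, ap_inv]
  intro g hg
  rw [Subgroup.mem_normalizer_iff]
  intro k
  refine ⟨key g hg k, fun hk => ?_⟩
  have h1 := key g⁻¹ ((FB ρ t H).inv_mem hg) _ hk
  have h2 : g⁻¹ * (g * k * g⁻¹) * g⁻¹⁻¹ = k := by group
  rwa [h2] at h1

theorem sp_le_of_IU (hU : ND f U) {y : K} (hy : y ∈ IU ρ f U) : sp ρ y ≤ U := by
  rintro _ ⟨v, rfl⟩
  obtain ⟨u, hu, w, hw, rfl⟩ := decomp hU v
  have h1 : (ρ y - 1) (u + w) = ρ y u - u := by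
    show ρ y (u + w) - (u + w) = _
    rw [map_add, hy.2 w hw]
    abel
  rw [h1]
  exact U.sub_mem (mem_of_map hy.1 hu) hu

/-- `T = closure (Zs ρ t H)` as a Sylow subgroup -/
theorem sylT_of (h : Std ρ f Q t H) (hsyl : ¬ t ∣ (closure (Zs ρ t H)).index) :
    SylT ρ f Q t H (closure (Zs ρ t H)) := by
  have htf := Fact.mk h.ht
  obtain ⟨-, hp⟩ := h.closure_comm
  refine { toStd := h, hT := hp, hTH := closure_le_H, hmax := fun R hR hle => ?_ }
  have h1 := (hp.toSylow hsyl).is_maximal' hR hle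
  exact h1

/-- an `r`-small element of `H` on a `t`-block -/
theorem dim_le (h : IsoG ρ f Q) (h2 : 2 ∉ π) (hp : ∀ l ∈ π, l.Prime → (l : F) ≠ 0) (hH : IsPiHall π H)
    (ht : t.Prime) (htπ : t ∈ π) (hr : r.Prime) (hrπ : r ∈ π) (hsyl : ¬ t ∣ (closure (Zs ρ t H)).index)
    (hU : U ∈ Bl ρ t H) {y : K} (hy : ∃ k : ℕ, y ^ r ^ k = 1) (hyU : y ∈ IU ρ f U) (hy1 : y ≠ 1) :
    finrank F U ≤ r - 1 := by
  classical
  have hrf := Fact.mk hr
  have hs := h.std h2 hp hH ht htπ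
  have hrs := h.std h2 hp hH hr hrπ
  have hnd := hs.nd_bl hU
  have hro : Odd r := hrs.hto
  have hrF : (r : F) ≠ 0 := hrs.htF
  -- an element of order `r`
  obtain ⟨y', hy'U, hy't, hy'1⟩ : ∃ y' ∈ IU ρ f U, y' ^ r = 1 ∧ y' ≠ 1 := by
    have h1 := Nat.find_spec hy
    have h2 : Nat.find hy ≠ 0 := by
      intro h0
      rw [h0, pow_zero, pow_one] at h1
      exact hy1 h1
    obtain ⟨n, hn⟩ := Nat.exists_eq_succ_of_ne_zero h2
    refine ⟨y ^ r ^ n, (IU ρ f U).pow_mem hyU _, ?_, ?_⟩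
    · rw [← pow_mul, ← pow_succ]
      rw [hn] at h1
      exact h1
    · exact Nat.find_min hy (m := n) (by omega)
  -- a small element
  obtain ⟨z, hzt, hz1, hzr, hzU⟩ : ∃ z : K, z ^ r = 1 ∧ z ≠ 1 ∧ rk ρ z ≤ r - 1 ∧ z ∈ IU ρ f U := by
    have hyt' : (ρ y') ^ r = 1 := by rw [← map_pow, hy't, map_one]
    have hy1' : ρ y' ≠ 1 := fun h0 => hy'1 (h.inj (by rw [h0, map_one]))
    obtain ⟨ε, hε, hsym⟩ := h.sym
    obtain ⟨v, hv, hvi⟩ := exists_vec f h.nd hε hsym hro hrF hyt' hy1' (h.iso y')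
    obtain ⟨z, W, hz1, hz2, hz3, hz4, hWy, hzW, hzO, hdec⟩ :=
      exists_small f h.refl hr.pos hrF hyt' (h.iso y') hv hvi
    have hzQ : ∀ v, Q (z v) = Q v := by
      intro v
      obtain ⟨u, hu, w, hw, rfl⟩ := hdec v
      rw [map_add, hzW u hu, hzO w hw, h.addQ _ _ (hw _ (hWy u hu)), h.addQ _ _ (hw u hu), h.isoQ]
    obtain ⟨k, hk⟩ := h.full z hz4 hzQ
    have hkU : sp ρ k ≤ U := by
      refine le_trans ?_ (sp_le_of_IU hnd hy'U)
      rintro _ ⟨v, rfl⟩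
      obtain ⟨u, hu, w, hw, rfl⟩ := hdec v
      have e : (ρ k - 1) (u + w) = ρ y' u - u := by
        show ρ k (u + w) - (u + w) = _
        rw [hk, map_add, hzW u hu, hzO w hw]
        abel
      rw [e]
      exact mem_sp u
    refine ⟨k, h.inj (by rw [map_pow, hk, hz1, map_one]), ?_, by unfold rk; rw [hk]; exact hz3, ?_, ?_⟩
    · intro h0
      rw [h0, map_one] at hk
      exact hz2 hk.symm
    · apply map_eq_of_le
      rintro _ ⟨u, hu, rfl⟩
      have h3 := U.add_mem (hkU (mem_sp u)) hu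
      rwa [sub_add_cancel] at h3
    · intro w hw
      exact (mem_Orth_sp h).mp fun u hu => hw u (hkU hu)
  -- in `H`
  obtain ⟨g, hgU, hgz⟩ := exists_conj_mem hH FB_le_norm (IU_le_FB hs hU) (FB_le_norm_IU hs hU) hr hrπ hzU
    ⟨1, by rw [pow_one]; exact hzt⟩
  obtain ⟨z', hz'⟩ : ∃ z' : K, z' = g * z * g⁻¹ := ⟨_, rfl⟩
  rw [← hz'] at hgz
  have hz'U : z' ∈ IU ρ f U := by
    rw [hz']
    exact (IU ρ f U).mul_mem ((IU ρ f U).mul_mem hgU hzU) ((IU ρ f U).inv_mem hgU)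
  have hz's : Small ρ r z' := by
    rw [hz']
    exact Small.conj ⟨⟨1, by rw [pow_one]; exact hzt⟩, hzr⟩ _
  have hz'1 : z' ≠ 1 := by rw [hz', Ne, conj_eq_one_iff]; exact hz1
  have hT := sylT_of hs hsyl
  -- `z'` commutes with `T`
  have hc : ∀ d ∈ closure (Zs ρ t H), z' * d = d * z' := by
    have hpi := piN_Pi0 (F := F) Nat.card_pos.ne' (piN_of_pgroup (F := F) hs.ht hs.hto hs.htF hs.closure_comm.2)
    have hr2 := hr.two_le
    have hr1 : r ≠ 1 := by omega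
    refine comm_of_rk ρ h.inj hr hro hz's.1 ?_ hpi.1 hpi.2 hs.closure_comm.1 ?_ f h.iso h.nd
    · have := hz's.2
      omega
    · intro d hd
      exact (Subgroup.mem_normalizer_iff.mp (hs.le_norm hgz) d).mp hd
  -- the support of `z'`
  have hnd' : ND f (sp ρ z') := nd_sp h hrF hz's.1
  have hle : sp ρ z' ≤ U := sp_le_of_IU hnd hz'U
  have hTW : ∀ x ∈ closure (Zs ρ t H), (sp ρ z').map (ρ x) = sp ρ z' := fun x hx =>
    map_sp_of_comm (hc x hx).symm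
  obtain ⟨z₀, hz₀, hU0, hz₀1, hmin⟩ := hU
  have hz₀T : z₀ ∈ closure (Zs ρ t H) := subset_closure hz₀
  obtain ⟨k, hk⟩ := h.exists_part hnd' (x := z₀) (fun u hu => mem_of_map (hTW z₀ hz₀T) hu)
  have hkT := hT.part_mem hnd' hTW hz₀T hk
  have hkt : ∃ m : ℕ, k ^ t ^ m = 1 := hk.tel h hnd' (fun u hu => mem_of_map (hTW z₀ hz₀T) hu) hz₀.2.1
  have hkZ : k ∈ Zs ρ t H := ⟨closure_le_H hkT, small_of_sp_le hkt hz₀.2 (hk.sp_le' hnd')⟩
  have hkW : sp ρ k ≤ sp ρ z' := hk.sp_le hnd' (fun u hu => mem_of_map (hTW z₀ hz₀T) hu)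
  have hUW : U ≤ sp ρ z' := by
    by_cases hk1 : k = 1
    · exfalso
      apply hz'1
      rw [← sp_eq_bot h.inj, eq_bot_iff]
      intro u hu
      have h3 : ρ z₀ u = u := by rw [← hk.1 u hu, hk1, one_ap]
      have h4 : u ∈ Orth f U := by
        rw [hU0]
        exact (mem_Orth_sp h).mpr h3
      exact hnd u (hle hu) h4
    · have h3 := hmin k hkZ hk1 (hkW.trans hle)
      rw [← h3]
      exact hkW
  have h3 : U = sp ρ z' := le_antisymm hUW hle
  rw [h3]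
  exact hz's.2

/-- **an `r`-element on a `t`-block** -/
theorem comm_of_block (h : IsoG ρ f Q) (h2 : 2 ∉ π) (hp : ∀ l ∈ π, l.Prime → (l : F) ≠ 0) (hH : IsPiHall π H)
    (ht : t.Prime) (htπ : t ∈ π) (hr : r.Prime) (hrπ : r ∈ π) (hsyl : ¬ t ∣ (closure (Zs ρ t H)).index)
    (hU : U ∈ Bl ρ t H) {y : K} (hy : ∃ k : ℕ, y ^ r ^ k = 1) (hyU : y ∈ IU ρ f U)
    (hyn : Nrm y (closure (Zs ρ t H))) : ∀ d ∈ closure (Zs ρ t H), y * d = d * y := by
  by_cases hy1 : y = 1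
  · intro d _
    rw [hy1, one_mul, mul_one]
  have hs := h.std h2 hp hH ht htπ
  have hrs := h.std h2 hp hH hr hrπ
  have h1 := dim_le h h2 hp hH ht htπ hr hrπ hsyl hU hy hyU hy1
  have h3 : rk ρ y ≤ finrank F U := Submodule.finrank_mono (sp_le_of_IU (hs.nd_bl hU) hyU)
  have hpi := piN_Pi0 (F := F) Nat.card_pos.ne' (piN_of_pgroup (F := F) hs.ht hs.hto hs.htF hs.closure_comm.2)
  have hr2 := hr.two_le
  refine comm_of_rk ρ h.inj hr hrs.hto hy ?_ hpi.1 hpi.2 hs.closure_comm.1 hyn f h.iso h.nd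
  omega

end Cfsg.Agent.H572.DPO
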