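import Cfsg.Agent.H572.DPO.Block

/-!
# Frames exist (helper572, S4247 [O])
-/

set_option autoImplicit false
set_option linter.unusedSectionVars false

namespace Cfsg.Agent.H572.DPO

open Module Subgroup Cfsg Cfsg.Agent.H167.OP Cfsg.Agent.H560.HallKey Cfsg.Agent.H170.HL Cfsg.Agent.H988.CPi
  Cfsg.Agent.H553.OddHall Cfsg.Agent.H571.RV Cfsg.Agent.H572.RV Cfsg.Agent.H969.DPi

variable {F : Type*} [Field F] [Finite F] {V : Type*} [AddCommGroup V] [Module F V] [Finite V]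
  [FiniteDimensional F V] {K : Type*} [Group K] [Finite K]
  {ρ : Representation F K V} {f : V →ₗ[F] V →ₗ[F] F} {Q : V → F} {π : Set ℕ} {U : Submodule F V}
  {H : Subgroup K} {r t : ℕ}

/-- the small elements for the primes different from `r` -/
def SA (ρ : Representation F K V) (π : Set ℕ) (r : ℕ) (H : Subgroup K) : Set K :=
  {z | ∃ t : ℕ, t.Prime ∧ t ∈ π ∧ t ≠ r ∧ z ∈ Zs ρ t H}

theorem SA_le : closure (SA ρ π r H) ≤ H := by
  rw [Subgroup.closure_le]
  rintro a ⟨t, -, -, -, ha⟩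
  exact ha.1

theorem SA_norm : H ≤ normalizer (closure (SA ρ π r H) : Set K) := by
  refine le_normalizer_closure H (SA ρ π r H) ?_
  rintro g hg a ⟨t, ht, htπ, htr, ha⟩
  exact ⟨t, ht, htπ, htr, Zs_conj hg ha⟩

theorem SA_comm (h : IsoG ρ f Q) (h2 : 2 ∉ π) (hp : ∀ l ∈ π, l.Prime → (l : F) ≠ 0) (hH : IsPiHall π H) :
    ∀ a ∈ closure (SA ρ π r H), ∀ b ∈ closure (SA ρ π r H), a * b = b * a := by
  have hcomm : ∀ a ∈ SA ρ π r H, ∀ b ∈ SA ρ π r H, a * b = b * a := by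
    rintro a ⟨t, ht, htπ, -, ha⟩ b ⟨s, hs, hsπ, -, hb⟩
    have htf := Fact.mk ht
    have hsf := Fact.mk hs
    have ht' := h.std h2 hp hH ht htπ
    have hs' := h.std h2 hp hH hs hsπ
    by_cases hst : t = s
    · subst hst
      exact ht'.comm_zs ha hb
    · set A := Subgroup.closure (Zs ρ t H) with hA
      set B := Subgroup.closure (Zs ρ s H) with hB
      have haA : a ∈ A := Subgroup.subset_closure ha
      have hbB : b ∈ B := Subgroup.subset_closure hb
      have hAn := ht'.le_norm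
      have hBn := hs'.le_norm
      have h1 : a * b * a⁻¹ * b⁻¹ ∈ B :=
        B.mul_mem ((Subgroup.mem_normalizer_iff.mp (hBn ha.1) b).mp hbB) (B.inv_mem hbB)
      have h3 : a * b * a⁻¹ * b⁻¹ ∈ A := by
        have h4 := (Subgroup.mem_normalizer_iff.mp (hAn hb.1) a⁻¹).mp (A.inv_mem haA)
        have h5 := A.mul_mem haA h4
        convert h5 using 1
        group
      have h4 : Disjoint A B := IsPGroup.disjoint_of_ne t s hst A B ht'.closure_comm.2 hs'.closure_comm.2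
      have h5 : a * b * a⁻¹ * b⁻¹ = 1 := by
        have : a * b * a⁻¹ * b⁻¹ ∈ A ⊓ B := ⟨h3, h1⟩
        rwa [h4.eq_bot, Subgroup.mem_bot] at this
      calc a * b = (a * b * a⁻¹ * b⁻¹) * (b * a) := by group
        _ = b * a := by rw [h5, one_mul]
  have h1 : Subgroup.closure (SA ρ π r H) ≤ Subgroup.centralizer (SA ρ π r H) := by
    rw [Subgroup.closure_le]
    intro a ha
    rw [SetLike.mem_coe, Subgroup.mem_centralizer_iff]
    exact fun b hb => hcomm b hb a ha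
  have h2 : Subgroup.closure (SA ρ π r H) ≤ Subgroup.centralizer (Subgroup.closure (SA ρ π r H) : Set K) := by
    rw [Subgroup.closure_le]
    intro a ha
    rw [SetLike.mem_coe, Subgroup.mem_centralizer_iff]
    intro b hb
    exact (Subgroup.mem_centralizer_iff.mp (h1 hb) a ha).symm
  exact fun a ha b hb => (Subgroup.mem_centralizer_iff.mp (h2 ha) b hb).symm

/-- `SA` generates an `r'`-group -/
theorem SA_card (h : IsoG ρ f Q) (h2 : 2 ∉ π) (hp : ∀ l ∈ π, l.Prime → (l : F) ≠ 0) (hH : IsPiHall π H)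
    (hr : r.Prime) : ¬ r ∣ Nat.card (closure (SA ρ π r H)) := by
  have hAr : ∀ a ∈ Subgroup.closure (SA ρ π r H), ∃ n : ℕ, ¬ r ∣ n ∧ a ^ n = 1 := by
    intro a ha
    induction ha using Subgroup.closure_induction with
    | mem x hx =>
      obtain ⟨t, ht, htπ, htr, hx⟩ := hx
      obtain ⟨k, hk⟩ := hx.2.1
      refine ⟨t ^ k, ?_, hk⟩
      intro hd
      exact htr ((Nat.prime_dvd_prime_iff_eq hr ht).mp (hr.dvd_of_dvd_pow hd)).symm
    | one => exact ⟨1, hr.one_lt.ne' ∘ Nat.dvd_one.mp, one_pow 1⟩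
    | mul a b ha hb iha ihb =>
      obtain ⟨n, hn, hn'⟩ := iha
      obtain ⟨m, hm, hm'⟩ := ihb
      refine ⟨n * m, ?_, ?_⟩
      · rw [hr.dvd_mul]
        exact fun h0 => h0.elim hn hm
      · have hc : Commute a b := SA_comm h h2 hp hH a ha b hb
        rw [hc.mul_pow, pow_mul, hn', one_pow, one_mul, mul_comm, pow_mul, hm', one_pow]
    | inv a _ ih =>
      obtain ⟨n, hn, hn'⟩ := ih
      exact ⟨n, hn, by rw [inv_pow, hn', inv_one]⟩
  intro hd
  have hrf := Fact.mk hr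
  obtain ⟨a, ha⟩ := exists_prime_orderOf_dvd_card' (G := Subgroup.closure (SA ρ π r H)) r hd
  obtain ⟨n, hn, hn'⟩ := hAr a a.2
  apply hn
  rw [← ha, ← Subgroup.orderOf_coe]
  exact orderOf_dvd_of_pow_eq_one hn'

theorem SA_index (hH : IsPiHall π H)
    (hSyl : ∀ t : ℕ, t.Prime → t ∈ π → t ≠ r → ¬ t ∣ (Subgroup.closure (Zs ρ t H)).index) :
    ∀ p : ℕ, p.Prime → p ∣ (closure (SA ρ π r H)).relIndex H → p = r := by
  intro p hpp hd
  by_contra hpr
  have hpπ : p ∈ π := hH.1 p hpp (hd.trans (Subgroup.relIndex_dvd_card _ _))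
  apply hSyl p hpp hpπ hpr
  have h1 : Subgroup.closure (Zs ρ p H) ≤ Subgroup.closure (SA ρ π r H) :=
    Subgroup.closure_mono fun z hz => ⟨p, hpp, hpπ, hpr, hz⟩
  exact (hd.trans (Subgroup.relIndex_dvd_index_of_le SA_le)).trans (Subgroup.index_dvd_of_le h1)

/-- decomposition of the elements of `H` -/
theorem exists_dec {G : Type*} [Group G] [Finite G] {A H : Subgroup G} {r : ℕ} (hr : r.Prime) (hAH : A ≤ H)
    (hn : H ≤ normalizer (A : Set G)) (hA : ¬ r ∣ Nat.card A)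
    (hi : ∀ p : ℕ, p.Prime → p ∣ A.relIndex H → p = r) {x : G} (hx : x ∈ H) :
    ∃ a ∈ A, ∃ y ∈ zpowers x, (∃ k : ℕ, y ^ r ^ k = 1) ∧ x = a * y := by
  obtain ⟨k, hk⟩ : ∃ k : ℕ, A.relIndex H = r ^ k := by
    have h1 : A.relIndex H ≠ 0 := by
      have := Subgroup.relIndex_dvd_card A H
      intro h0
      rw [h0] at this
      exact Nat.card_pos.ne' (Nat.eq_zero_of_zero_dvd this)
    exact ⟨_, Nat.eq_prime_pow_of_unique_prime_dvd h1 fun {d} hd hdd => hi d hd hdd⟩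
  have hxk : x ^ r ^ k ∈ A := by
    have hN : (A.subgroupOf H).Normal := (Subgroup.normal_subgroupOf_iff_le_normalizer hAH).mpr hn
    have h1 : (⟨x, hx⟩ : H) ^ (A.subgroupOf H).index ∈ A.subgroupOf H := Subgroup.pow_index_mem _ _
    have h2 : (A.subgroupOf H).index = r ^ k := hk
    rw [h2] at h1
    exact h1
  obtain ⟨m, hm⟩ : ∃ m : ℕ, m = Nat.card A := ⟨_, rfl⟩
  have hcop : Nat.Coprime (r ^ k) m := by
    rw [hm]
    exact Nat.Coprime.pow_left k ((Nat.Prime.coprime_iff_not_dvd hr).mpr hA)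
  have hgcd := Nat.gcd_eq_gcd_ab (r ^ k) m
  rw [hcop.gcd_eq_one] at hgcd
  refine ⟨(x ^ r ^ k) ^ (Nat.gcdA (r ^ k) m), A.zpow_mem hxk _, (x ^ m) ^ (Nat.gcdB (r ^ k) m), ?_, ⟨k, ?_⟩, ?_⟩
  · exact Subgroup.zpow_mem _ (Subgroup.pow_mem _ (mem_zpowers x) _) _
  · have h1 : (x ^ r ^ k) ^ m = 1 := by
      have h2 : (⟨x ^ r ^ k, hxk⟩ : A) ^ m = 1 := by rw [hm]; exact pow_card_eq_one'
      exact congrArg Subtype.val h2
    rw [← zpow_natCast ((x ^ m) ^ (Nat.gcdB (r ^ k) m)) (r ^ k), ← zpow_mul, mul_comm, zpow_mul, zpow_natCast,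
      ← pow_mul, mul_comm m, pow_mul, h1, one_zpow]
  · rw [← zpow_natCast x (r ^ k), ← zpow_natCast x m, ← zpow_mul, ← zpow_mul, ← zpow_add, ← hgcd]
    simp

/-- elements of `H` fixing all blocks centralise `T` -/
theorem cent_of (h : IsoG ρ f Q) (h2 : 2 ∉ π) (hp : ∀ l ∈ π, l.Prime → (l : F) ≠ 0) (hH : IsPiHall π H)
    (ht : t.Prime) (htπ : t ∈ π) (hr : r.Prime) (hrπ : r ∈ π) (hsyl : ¬ t ∣ (closure (Zs ρ t H)).index)
    {y : K} (hyH : y ∈ H) (hy : ∃ k : ℕ, y ^ r ^ k = 1) (hyF : y ∈ FB ρ t H) :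
    ∀ z ∈ closure (Zs ρ t H), y * z = z * y := by
  have hs := h.std h2 hp hH ht htπ
  have hT := sylT_of hs hsyl
  set T := closure (Zs ρ t H) with hTd
  have hTF : ∀ z ∈ T, ∀ U ∈ Bl ρ t H, U.map (ρ z) = U := by
    intro z hz U hU
    obtain ⟨z₀, hz₀, rfl, -⟩ := hU
    exact map_sp_of_comm (hs.closure_comm.1 z hz z₀ (subset_closure hz₀))
  -- on the blocks
  have key : ∀ U ∈ Bl ρ t H, ∀ z ∈ T, ∀ u ∈ U, ρ (y * z) u = ρ (z * y) u := by
    intro U hU z hz u hu
    have hnd := hs.nd_bl hU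
    have hyU : U.map (ρ y) = U := hyF U hU
    obtain ⟨k, hk⟩ := h.exists_part hnd (x := y) (fun u hu => mem_of_map hyU hu)
    have hkI : k ∈ IU ρ f U := by
      refine ⟨?_, hk.2⟩
      rw [← hyU]
      apply le_antisymm
      · rintro _ ⟨u', hu', rfl⟩
        rw [hyU] at hu' ⊢
        rw [SetLike.mem_coe] at hu'
        rw [hk.1 u' hu']
        exact mem_of_map hyU hu'
      · rintro _ ⟨u', hu', rfl⟩
        refine ⟨u', ?_, hk.1 u' hu'⟩
        rw [hyU]
        exact hu'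
    have hkr : ∃ m : ℕ, k ^ r ^ m = 1 := by
      have := hk.tel (t := r) h hnd (fun u hu => mem_of_map hyU hu) hy
      exact this
    have hkn : Nrm k T := by
      intro d hd
      -- the part of `d`
      obtain ⟨e, he⟩ := h.exists_part hnd (x := d) (fun u hu => mem_of_map (hTF d hd U hU) hu)
      have heT := hT.part_mem hnd (fun x hx => hTF x hx U hU) hd he
      have hyd : y * d * y⁻¹ ∈ T := (Subgroup.mem_normalizer_iff.mp (hs.le_norm hyH) d).mp hd
      obtain ⟨e', he'⟩ := h.exists_part hnd (x := y * d * y⁻¹) (fun u hu => mem_of_map (hTF _ hyd U hU) hu)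
      have heT' := hT.part_mem hnd (fun x hx => hTF x hx U hU) hyd he'
      have h5 : k * d * k⁻¹ = e' * (d * e⁻¹) := by
        have hki := (IU ρ f U).inv_mem hkI
        have hdU := hTF d hd U hU
        have hdO := Orth_map_of_map h hdU
        have hei := he.inv hdU
        have hdi : U.map (ρ d⁻¹) = U := map_inv_of_map hdU
        have hki1 : ∀ u ∈ U, ρ k⁻¹ u = ρ y⁻¹ u := by
          have := hk.inv hyU
          exact this.1
        apply eq_of_parts h.inj hnd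
        · intro u hu
          have h6 : ρ k⁻¹ u ∈ U := mem_of_map hki.1 hu
          have h7 : ρ d (ρ k⁻¹ u) ∈ U := mem_of_map hdU h6
          rw [mul_ap, mul_ap, hk.1 _ h7, mul_ap, mul_ap, hei.1 u hu, ap_inv, he'.1 u hu, mul_ap, mul_ap,
            hki1 u hu]
        · intro w hw
          have h6 : ρ k⁻¹ w = w := hki.2 w hw
          have h7 : ρ d w ∈ Orth f U := mem_of_map hdO hw
          rw [mul_ap, mul_ap, h6, hk.2 _ h7, mul_ap, mul_ap, hei.2 w hw, he'.2 _ h7]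
      rw [h5]
      exact T.mul_mem heT' (T.mul_mem hd (T.inv_mem heT))
    have h6 := comm_of_block h h2 hp hH ht htπ hr hrπ hsyl hU hkr hkI hkn z hz
    have hzu := mem_of_map (hTF z hz U hU) hu
    rw [mul_ap, mul_ap, ← hk.1 _ hzu, ← mul_ap, h6, mul_ap, hk.1 u hu]
  -- on `WB`
  intro z hz
  apply eq_of_parts h.inj hs.nd_WB
  · intro u hu
    have h1 : WB ρ t H ≤ LinearMap.ker (ρ (y * z) - ρ (z * y)) := by
      refine CV_closure_le fun z' hz' => hs.sp_le_of_bl (fun U hU u hu => ?_) _ z' hz' rfl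
      rw [LinearMap.mem_ker, LinearMap.sub_apply, key U hU z hz u hu, sub_self]
    have h3 := h1 hu
    rw [LinearMap.mem_ker, LinearMap.sub_apply, sub_eq_zero] at h3
    exact h3
  · intro w hw
    have hyW := Orth_map_of_map h (hs.WB_map hyH)
    have hfix : ∀ w ∈ Orth f (WB ρ t H), ρ z w = w := fun w hw => (mem_Orth_CV h).mp hw z hz
    rw [mul_ap, mul_ap, hfix w hw, hfix _ (mem_of_map hyW hw)]

/-- **Frames exist.** -/
theorem exists_frame (h : IsoG ρ f Q) (h2 : 2 ∉ π) (hp : ∀ l ∈ π, l.Prime → (l : F) ≠ 0) (hH : IsPiHall π H)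
    (hnn : ¬ Group.IsNilpotent H) : ∃ r t : ℕ, Frame ρ f Q π H r t := by
  classical
  -- the exceptional prime
  let Ex : ℕ → Prop := fun t => t.Prime ∧ t ∈ π ∧ ∃ T : Subgroup K, SylT ρ f Q t H T ∧
    ∃ x ∈ T, ∃ U ∈ Bl ρ t H, U.map (ρ x) ≠ U
  have hmin : ∀ t : ℕ, Ex t → ∀ s : ℕ, s.Prime → s ∈ π → ¬ s < t := by
    rintro t ⟨ht, htπ, T, hT, hmv⟩ s hs hsπ hst
    exact hT.perm hH h2 htπ hmv hs hsπ hst
  have hSyl0 : ∀ t : ℕ, t.Prime → t ∈ π → ¬ Ex t → ¬ t ∣ (Subgroup.closure (Zs ρ t H)).index := by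
    intro t ht htπ hEx hd
    have htf := Fact.mk ht
    obtain ⟨T, S, hS⟩ := exists_sylow_map (t := t) htπ hH
    have hT : SylT ρ f Q t H (S : Subgroup K) :=
      { toStd := h.std h2 hp hH ht htπ
        hT := S.isPGroup'
        hTH := by rw [hS]; exact Subgroup.map_subtype_le _
        hmax := fun R hR hle => S.is_maximal' hR hle }
    have hfix : ∀ x ∈ (S : Subgroup K), ∀ U ∈ Bl ρ t H, U.map (ρ x) = U := by
      by_contra hcon
      push Not at hcon
      exact hEx ⟨ht, htπ, _, hT, hcon⟩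
    exact S.not_dvd_index (hd.trans (Subgroup.index_dvd_of_le (hT.le_closure hfix)))
  obtain ⟨r, hrEx⟩ : ∃ r, Ex r := by
    by_contra hcon
    push Not at hcon
    have h3 := SA_index (ρ := ρ) (r := 2) hH fun t ht htπ _ => hSyl0 t ht htπ (hcon t)
    have h4 : (closure (SA ρ π 2 H)).relIndex H = 1 := by
      by_contra hne
      obtain ⟨p, hpp, hd⟩ := Nat.exists_prime_and_dvd hne
      have h5 := h3 p hpp hd
      subst h5
      exact h2 (hH.1 2 hpp (hd.trans (Subgroup.relIndex_dvd_card _ _)))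
    have h5 := Subgroup.relIndex_eq_one.mp h4
    have h6 : ∀ a b : H, a * b = b * a := fun a b => Subtype.ext (SA_comm h h2 hp hH a (h5 a.2) b (h5 b.2))
    apply hnn
    let _ : CommGroup H := { (inferInstance : Group H) with mul_comm := h6 }
    exact CommGroup.isNilpotent
  have hr : r.Prime := hrEx.1
  have hrπ : r ∈ π := hrEx.2.1
  have hSyl : ∀ t : ℕ, t.Prime → t ∈ π → t ≠ r → ¬ t ∣ (Subgroup.closure (Zs ρ t H)).index := by
    intro t ht htπ htr
    apply hSyl0 t ht htπ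
    intro hEx
    rcases lt_trichotomy t r with h1 | h1 | h1
    · exact hmin r hrEx t ht htπ h1
    · exact htr h1
    · exact hmin t hEx r hr hrπ h1
  have hr3 : 3 ≤ r := by
    have h3 := hr.two_le
    have h4 : r ≠ 2 := fun h0 => h2 (h0 ▸ hrπ)
    omega
  have hA1 := SA_le (ρ := ρ) (π := π) (r := r) (H := H)
  have hA2 := SA_norm (ρ := ρ) (π := π) (r := r) (H := H)
  have hA3 := SA_comm (r := r) h h2 hp hH
  have hA4 := SA_card h h2 hp hH hr
  have hA5 := SA_index (ρ := ρ) hH hSyl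
  set A := closure (SA ρ π r H) with hA
  have hTA : ∀ t : ℕ, t.Prime → t ∈ π → t ≠ r → closure (Zs ρ t H) ≤ A := fun t ht htπ htr =>
    Subgroup.closure_mono fun z hz => ⟨t, ht, htπ, htr, hz⟩
  -- an `r`-element which does not centralise some `T`
  obtain ⟨t, ht, htπ, htr, y, hyH, hyr, z, hz, hyz⟩ : ∃ t : ℕ, t.Prime ∧ t ∈ π ∧ t ≠ r ∧ ∃ y ∈ H,
      (∃ k : ℕ, y ^ r ^ k = 1) ∧ ∃ z ∈ closure (Zs ρ t H), y * z ≠ z * y := by
    by_contra hcon
    push Not at hcon
    have h3 : ∀ y ∈ H, (∃ k : ℕ, y ^ r ^ k = 1) → ∀ a ∈ A, y * a = a * y := by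
      intro y hy hyr a ha
      induction ha using Subgroup.closure_induction with
      | mem x hx =>
        obtain ⟨t, ht, htπ, htr, hx⟩ := hx
        exact hcon t ht htπ htr y hy hyr x (subset_closure hx)
      | one => rw [mul_one, one_mul]
      | mul a b _ _ iha ihb => rw [← mul_assoc, iha, mul_assoc, ihb, mul_assoc]
      | inv a _ ih => rw [eq_inv_mul_iff_mul_eq, ← mul_assoc, ← ih, mul_inv_cancel_right]
    have h4 : ∀ x ∈ H, ∀ a ∈ A, x * a = a * x := by
      intro x hx a ha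
      obtain ⟨b, hb, y, hy, hyr, hxe⟩ := exists_dec hr hA1 hA2 hA4 hA5 hx
      have hyH : y ∈ H := (Subgroup.zpowers_le.mpr hx) hy
      rw [hxe, mul_assoc, h3 y hyH hyr a ha, ← mul_assoc, hA3 b hb a ha, mul_assoc]
    apply hnn
    have hN : (A.subgroupOf H).Normal := (Subgroup.normal_subgroupOf_iff_le_normalizer hA1).mpr hA2
    have hrf := Fact.mk hr
    have hPG : IsPGroup r (H ⧸ A.subgroupOf H) := by
      obtain ⟨k, hk⟩ : ∃ k : ℕ, A.relIndex H = r ^ k := by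
        have h1 : A.relIndex H ≠ 0 := by
          have := Subgroup.relIndex_dvd_card A H
          intro h0
          rw [h0] at this
          exact Nat.card_pos.ne' (Nat.eq_zero_of_zero_dvd this)
        exact ⟨_, Nat.eq_prime_pow_of_unique_prime_dvd h1 fun {d} hd hdd => hA5 d hd hdd⟩
      exact IsPGroup.of_card (n := k) hk
    have h5 : Group.IsNilpotent (H ⧸ A.subgroupOf H) := hPG.isNilpotent
    refine Subgroup.isNilpotent_of_ker_le_center (QuotientGroup.mk' (A.subgroupOf H)) ?_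
    rw [QuotientGroup.ker_mk']
    intro a ha
    rw [Subgroup.mem_center_iff]
    intro x
    exact Subtype.ext (h4 x x.2 a ha)
  have hs := h.std h2 hp hH ht htπ
  have hsyl := hSyl t ht htπ htr
  have hrt : r < t := by
    rcases lt_trichotomy t r with h1 | h1 | h1
    · exact absurd h1 (hmin r hrEx t ht htπ)
    · exact absurd h1 htr
    · exact h1
  have hAF : A ≤ FB ρ t H := by
    intro a ha U hU
    obtain ⟨z₀, hz₀, rfl, -⟩ := hU
    exact map_sp_of_comm (hA3 a ha z₀ (hTA t ht htπ htr (subset_closure hz₀)))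
  have hcent : ∀ x ∈ H, x ∈ FB ρ t H → ∀ z ∈ closure (Zs ρ t H), x * z = z * x := by
    intro x hx hxF z hz
    obtain ⟨b, hb, y, hy, hyr, hxe⟩ := exists_dec hr hA1 hA2 hA4 hA5 hx
    have hyH : y ∈ H := (Subgroup.zpowers_le.mpr hx) hy
    have hyF : y ∈ FB ρ t H := (Subgroup.zpowers_le.mpr hxF) hy
    rw [hxe, mul_assoc, cent_of h h2 hp hH ht htπ hr hrπ hsyl hyH hyr hyF z hz, ← mul_assoc,
      hA3 b hb z (hTA t ht htπ htr hz), mul_assoc]
  have hmv : ∃ y ∈ H, (∃ k : ℕ, y ^ r ^ k = 1) ∧ y ∉ FB ρ t H :=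
    ⟨y, hyH, hyr, fun hyF => hyz (cent_of h h2 hp hH ht htπ hr hrπ hsyl hyH hyr hyF z hz)⟩
  have hrg : ∀ p : ℕ, p.Prime → p ∣ (FB ρ t H).relIndex H → p = r := fun p hpp hd =>
    hA5 p hpp (hd.trans (Subgroup.relIndex_dvd_of_le_left H hAF))
  exact ⟨r, t, ⟨h, h2, hp, hH, hr, hrπ, ht, htπ, hr3, hrt, hsyl, hcent, hmv, hrg⟩⟩

end Cfsg.Agent.H572.DPO
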